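import Cfsg.Agent.ZN.CaseOne
import Cfsg.Agent.ZN.CaseTwo
import Cfsg.Agent.ZN.ChoiceNse
import Cfsg.Agent.ZN.Structure
import Cfsg.Agent.ZN.Amalgam
import Cfsg.Agent.ZN.FinalBridge
import Cfsg.Agent.Classification.ZNEndB
import Cfsg.Agent.S1225
import Cfsg.Prelude.Def_JComponents

/-!
# ZN-groups: the amalgam context exists as soon as some 2-local subgroup `M ≥ N_G(J(S))` is straddled

`M` is a 2-local subgroup containing `N_G(J(S))` and there is a nontrivial 2-subgroup of `M` lying in a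
2-local subgroup which is not contained in `M`. Then `Ctx N B P Q` holds for suitable `N, B, P, Q`.
-/

set_option autoImplicit false

namespace Cfsg.Agent.H252.ZNCtx

open Subgroup Cfsg Cfsg.Agent.ZN Cfsg.Agent.ZN.ChoiceBase Cfsg.Agent.ZN.ChoiceSit

universe u

variable {G : Type u} [Group G]

theorem two_dvd_card {U : Subgroup G} [Finite G] (hU : IsPGroup 2 U) (hU1 : U ≠ ⊥) :
    2 ∣ Nat.card U := by
  have : Fact (Nat.Prime 2) := ⟨Nat.prime_two⟩
  rcases hU.card_eq_or_dvd with h | h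
  · exact absurd (Subgroup.card_eq_one.1 h) hU1
  · exact h

/-- A strongly embedded subgroup contains the normalizers of its nontrivial 2-subgroups. -/
theorem normalizer_le_of_se [Finite G] {M U : Subgroup G} (hM : IsStronglyEmbedded M)
    (hU : IsPGroup 2 U) (hU1 : U ≠ ⊥) (hUM : U ≤ M) : normalizer (U : Set G) ≤ M := by
  intro g hg
  by_contra hgM
  have h1 := hM.2.2 g hgM
  have h2 : U ≤ M ⊓ M.map (MulAut.conj g).toMonoidHom := by
    refine le_inf hUM ?_
    have h3 : cj g U = U := cj_eq_of_mem_normalizer hg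
    calc U = cj g U := h3.symm
      _ ≤ cj g M := cj_mono g hUM
  have h3 : 2 ∣ Nat.card ↥(M ⊓ M.map (MulAut.conj g).toMonoidHom) :=
    (two_dvd_card hU hU1).trans (Subgroup.card_dvd_of_le h2)
  rw [← Nat.not_even_iff_odd] at h1
  exact h1 (even_iff_two_dvd.2 h3)

/-- A 2-local subgroup meeting a strongly embedded subgroup in a group of even order lies in it. -/
theorem le_of_se [Finite G] {M X T : Subgroup G} (hM : IsStronglyEmbedded M) (hX : IsTwoLocal X)
    (hT : IsPGroup 2 T) (hT1 : T ≠ ⊥) (hTM : T ≤ M) (hTX : T ≤ X) : X ≤ M := by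
  have : Fact (Nat.Prime 2) := ⟨Nat.prime_two⟩
  obtain ⟨Y, hY, hY1, rfl⟩ := hX
  obtain ⟨w, hwY, hw1, hw⟩ := Cfsg.Agent.Classification.ZNEndA.exists_fixed hY hY1 hT hTX
  have hwM : w ∈ M := by
    apply normalizer_le_of_se hM hT hT1 hTM
    apply centralizer_le_normalizer
    rw [mem_centralizer_iff]
    exact fun q hq => hw q hq
  have h1 : Y ⊓ M ≠ ⊥ := by
    intro h0
    apply hw1
    have : w ∈ Y ⊓ M := ⟨hwY, hwM⟩
    rw [h0] at this
    exact Subgroup.mem_bot.1 this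
  have h2 : normalizer ((Y ⊓ M : Subgroup G) : Set G) ≤ M :=
    normalizer_le_of_se hM (hY.to_le inf_le_left) h1 inf_le_right
  have h3 : Y ⊓ M = Y := by
    apply ChoiceNse.eq_of_normalizer_inf_le hY inf_le_left
    exact le_inf inf_le_right (inf_le_left.trans h2)
  exact normalizer_le_of_se hM hY hY1 (inf_eq_left.1 h3)

/-- `M` strongly embedded implies that no 2-subgroup straddles. -/
theorem straddling_eq_empty_of_se [Finite G] {M : Subgroup G} (hM : IsStronglyEmbedded M) :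
    straddlingTwoSubgroups M = ∅ := by
  rw [Set.eq_empty_iff_forall_notMem]
  rintro T ⟨hT, hT1, hTM, X, hX, hTX, hXM⟩
  exact hXM (le_of_se hM hX hT hT1 hTM hTX)

/-- There is an involution outside a strongly embedded subgroup. -/
theorem exists_outside [Finite G] {M : Subgroup G} (hM : IsStronglyEmbedded M) :
    ∃ u : G, orderOf u = 2 ∧ u ∉ M := by
  have : Fact (Nat.Prime 2) := ⟨Nat.prime_two⟩
  by_contra hcon
  push Not at hcon
  obtain ⟨g, hg⟩ : ∃ g, g ∉ M := by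
    by_contra h
    push Not at h
    exact hM.1 (eq_top_iff.2 fun x _ => h x)
  obtain ⟨t, ht⟩ := exists_prime_orderOf_dvd_card' 2 (even_iff_two_dvd.1 hM.2.1)
  have ht2 : orderOf (t : G) = 2 := by rw [← ht]; exact Subgroup.orderOf_coe t
  have h1 := hM.2.2 g hg
  have h2 : (t : G) ∈ M ⊓ M.map (MulAut.conj g).toMonoidHom := by
    refine mem_inf.2 ⟨t.2, ?_⟩
    rw [mem_cj]
    apply hcon
    have h3 := orderOf_injective (MulAut.conj g⁻¹).toMonoidHom (MulAut.conj g⁻¹).injective (t : G)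
    have h4 : (MulAut.conj g⁻¹).toMonoidHom (t : G) = g⁻¹ * t * g := by
      simp [MulAut.conj_apply]
    rw [h4] at h3
    rw [h3, ht2]
  have h3 : 2 ∣ Nat.card ↥(M ⊓ M.map (MulAut.conj g).toMonoidHom) := by
    rw [← ht2, ← Subgroup.orderOf_mk (t : G) h2]
    exact orderOf_dvd_natCard _
  rw [← Nat.not_even_iff_odd] at h1
  exact h1 (even_iff_two_dvd.2 h3)

/-- In a group of characteristic 2 type, `Ω₁Z(S) ≤ O₂(X)` for `S ≤ X`, `S` a maximal 2-subgroup of
`G`, `X` 2-local. -/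
theorem zc_le_o2 [Finite G] (hL : IsCharacteristicTwoType G) {X S : Subgroup G}
    (hX : IsTwoLocal X) (hSX : S ≤ X) (hoS : o2 X ≤ S) : zc S ≤ o2 X := by
  intro x hx
  have hx' := mem_zc.1 hx
  apply self_cent hL hX
  refine mem_inf.2 ⟨hSX hx'.1, ?_⟩
  rw [mem_centralizer_iff]
  exact fun y hy => hx'.2.2 y (hoS hy)

theorem isElementaryAbelian_zc (B : Subgroup G) : IsElementaryAbelian 2 (zc B) := by
  refine ⟨⟨⟨fun a b => Subtype.ext ?_⟩⟩, fun a ha => (mem_zc.1 ha).2.1⟩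
  exact (mem_zc.1 b.2).2.2 a (mem_zc.1 a.2).1

/-- If `X` is a strongly embedded 2-local subgroup containing `S`, then `J(S)` is normal in `X`. -/
theorem le_normalizer_jj_of_se [Finite G] (hL : IsCharacteristicTwoType G) (S : Sylow 2 G)
    {X : Subgroup G} (hX : IsTwoLocal X) (hSX : (S : Subgroup G) ≤ X) (hse : IsStronglyEmbedded X) :
    X ≤ normalizer ((jj (S : Subgroup G) : Subgroup G) : Set G) := by
  have : Fact (Nat.Prime 2) := ⟨Nat.prime_two⟩
  have hsyl : Syl (S : Subgroup G) X := CaseTwo.syl_of_sylow S hSX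
  have hoS : o2 X ≤ (S : Subgroup G) := o2_le_syl hsyl
  have hSne := CaseOne.sylow_ne_bot hL S
  obtain ⟨z, hz, hz1⟩ := (zc (S : Subgroup G)).bot_or_exists_ne_one.resolve_left
    (zc_ne_bot S.isPGroup' hSne)
  have hz' := mem_zc.1 hz
  have hzR : z ∈ zc (o2 X) := by
    rw [mem_zc]
    exact ⟨zc_le_o2 hL hX hSX hoS hz, hz'.2.1, fun y hy => hz'.2.2 y (hoS hy)⟩
  obtain ⟨u, hu, huX⟩ := exists_outside hse
  have hz2 : orderOf z = 2 := orderOf_eq_prime hz'.2.1 hz1
  have key : ∀ t ∈ X, t ^ 2 = 1 → t ∈ zc (o2 X) := by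
    intro t ht ht2
    by_cases ht1 : t = 1
    · rw [ht1]; exact one_mem _
    · obtain ⟨⟨d, hd, hdt⟩, -⟩ := Cfsg.Agent.S1225.result X hse u hu huX z t hz2
        (hSX hz'.1) (orderOf_eq_prime ht2 ht1) ht
      rw [← hdt]
      exact FinalBridge.zc_conj (le_normalizer_o2 X hd.1) hzR
  have hzcS : zc (o2 X) ≤ (S : Subgroup G) := (zc_le _).trans hoS
  have hAA : ∀ A ∈ AA (S : Subgroup G), A = zc (o2 X) := by
    intro A hA
    have h1 : A ≤ zc (o2 X) := fun a ha => key a (hSX (hA.2.1 ha)) (hA.1.2 a ha)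
    exact Subgroup.eq_of_le_of_card_ge h1 (hA.2.2 _ (isElementaryAbelian_zc _) hzcS)
  have hjj : jj (S : Subgroup G) = zc (o2 X) := by
    rw [jj_eq]
    apply le_antisymm
    · exact sSup_le fun A hA => (hAA A hA).le
    · obtain ⟨A, hA⟩ := AA_nonempty (S : Subgroup G)
      rw [← hAA A hA]
      exact le_sSup hA
  rw [hjj]
  intro g hg
  rw [mem_normalizer_iff]
  intro x
  refine ⟨fun hx => FinalBridge.zc_conj (le_normalizer_o2 X hg) hx, fun hx => ?_⟩
  have h1 := FinalBridge.zc_conj (inv_mem (le_normalizer_o2 X hg)) hx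
  have h2 : g⁻¹ * (g * x * g⁻¹) * g⁻¹⁻¹ = x := by group
  rwa [h2] at h1

/-- Context (II), for an `M` which is not strongly embedded (compare `CaseTwo.result`). -/
theorem caseTwo [Finite G] (hL : IsCharacteristicTwoType G) (hO : pCore 2 G = ⊥)
    (hN : ∀ N : Subgroup G, IsTwoLocal N → Group.IsSolvable N)
    (hZ : ∀ S : Sylow 2 G, centralizer (zc (S : Subgroup G) : Set G) ≤
      normalizer ((S : Subgroup G) : Set G))
    (hA : StrLemma G) (S : Sylow 2 G)
    {M : Subgroup G} (hse : ¬ IsStronglyEmbedded M) (hM : IsTwoLocal M) (hSM : (S : Subgroup G) ≤ M)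
    (hall : ∀ X : Subgroup G, IsTwoLocal X → (S : Subgroup G) ≤ X → X ≤ M) :
    ∃ N B P Q : Subgroup G, Ctx N B P Q := by
  have : Fact (Nat.Prime 2) := ⟨Nat.prime_two⟩
  have hMtop : M ≠ ⊤ := by
    rintro rfl
    obtain ⟨U, hU, hne, h⟩ := hM
    have hn : U.Normal := Subgroup.normalizer_eq_top_iff.1 h.symm
    apply hne
    rw [← le_bot_iff, ← hO]
    exact le_sSup ⟨hn, hU⟩
  have hS0 : (S : Subgroup G) ≠ ⊥ := CaseOne.sylow_ne_bot hL S
  have heven : Even (Nat.card M) :=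
    even_iff_two_dvd.2 ((two_dvd_card S.isPGroup' hS0).trans (Subgroup.card_dvd_of_le hSM))
  have hcand : ∃ T, CaseTwo.Cand M T := by
    obtain ⟨X, T, hX, hXM, hT, hT1, hTX, hTM⟩ := ChoiceNse.exists_pair heven hMtop hse
    exact ⟨T, hT, hT1, hTM, X, hX, hXM, hTX⟩
  obtain ⟨T, hT⟩ := CaseTwo.exists_max hcand
  obtain ⟨S₁, hS₁, hTS⟩ := exists_syl hT.1.1 hT.1.2.2.1
  obtain ⟨m, hm, hmS⟩ := syl_conj (CaseTwo.syl_of_sylow S hSM) hS₁
  have hne : T ≠ S₁ := by
    rintro rfl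
    obtain ⟨X, hX, hXM, hTX⟩ := hT.1.2.2.2
    apply hXM
    have h1 : cj m⁻¹ X ≤ M := by
      refine hall _ (isTwoLocal_cj _ hX) ?_
      rw [← cj_inv_cj m (S : Subgroup G), hmS]
      exact cj_mono _ hTX
    have h2 := cj_mono m h1
    rw [cj_cj_inv] at h2
    rwa [cj_eq_of_mem_normalizer (le_normalizer hm)] at h2
  obtain ⟨x, hx1, hx2, hx3⟩ := CaseTwo.exists_normalizing hS₁.2.1 hTS hne
  have h : CaseTwo.Data M T S₁ x := ⟨hT, hS₁.2.1, hTS, hS₁.1, hx1, hx2, hx3⟩
  have hsit := h.sit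
  have halt : M ≤ normalizer (jj (bau T) : Set G) ∨
      ∃ x ∈ M, x ∉ bau T ∧ x ∈ normalizer (bau T : Set G) ∧ IsPGroup 2 ↥(bau T ⊔ zpowers x) := by
    refine Or.inr ⟨x, h.leM h.x_mem, fun hx => h.x_not (bau_le T hx),
      normalizer_le_bau T h.x_norm, h.two.to_le (sup_le ((bau_le T).trans h.le) ?_)⟩
    rw [Subgroup.zpowers_le]
    exact h.x_mem
  rcases hsit.dich hL hN hZ hA halt with ⟨P, Q, hPQ⟩ | ⟨R, hR, hR1, hNR, hblk⟩
  · exact ⟨_, _, P, Q, hPQ⟩
  · exfalso
    have hRM : normalizer (R : Set G) ≤ M :=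
      h.normalizer_le (h.max.1.1.to_le (hR.trans (bau_le T))) hR1 ((normalizer_le_bau T).trans hNR)
    obtain ⟨X, hX, hXM, hTX⟩ := h.max.1.2.2.2
    obtain ⟨⟨𝓛, h𝓛⟩, -⟩ := hsit.str hL hN hZ hA X hX ((bau_le T).trans hTX) hXM
    apply hXM
    refine h𝓛.gen.trans (sup_le (sSup_le fun L hLL => ?_) (inf_le_right.trans
      hsit.normalizer_bau_le))
    by_contra hLM
    exact hLM ((hblk L (mem_EE_of_mem h𝓛 hX hLL hLM)).trans hRM)

/-- **The context exists** as soon as a 2-local `M ≥ N_G(J(S))` is straddled. -/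
theorem exists_ctx [Finite G] (hL : IsCharacteristicTwoType G)
    (hN : ∀ N : Subgroup G, IsTwoLocal N → Group.IsSolvable N)
    (hZ : ∀ S : Sylow 2 G, centralizer (zc (S : Subgroup G) : Set G) ≤
      normalizer ((S : Subgroup G) : Set G)) (hO : pCore 2 G = ⊥)
    (S : Sylow 2 G) {M : Subgroup G} (hM : IsTwoLocal M)
    (hMJ : normalizer ((jj (S : Subgroup G) : Subgroup G) : Set G) ≤ M)
    (hne : straddlingTwoSubgroups M ≠ ∅) :
    ∃ N B P Q : Subgroup G, Ctx N B P Q := by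
  have hA : StrLemma G := fun X T hs hc hT hTX hTs hZ' hJ =>
    Structure.exists_strData X T hs hc hT hTX hTs hZ' hJ
  rcases CaseOne.result hL hN hZ hA S with h | ⟨M₁, hM₁, hSM₁, hU⟩
  · exact h
  · by_cases hse : IsStronglyEmbedded M₁
    · exfalso
      apply hne
      have hSM : (S : Subgroup G) ≤ M :=
        (le_normalizer.trans (normalizer_le_jj (S : Subgroup G))).trans hMJ
      have h1 : M ≤ M₁ := hU M hM ((bau_le _).trans hSM)
      have h2 : M₁ ≤ M := (le_normalizer_jj_of_se hL S hM₁ hSM₁ hse).trans hMJ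
      have h3 : M = M₁ := le_antisymm h1 h2
      rw [h3]
      exact straddling_eq_empty_of_se hse
    · exact caseTwo hL hO hN hZ hA S hse hM₁ hSM₁ fun X hX hSX => hU X hX ((bau_le _).trans hSX)

end Cfsg.Agent.H252.ZNCtx
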